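import Mathlib
import Cfsg.Agent.Lib.Contrib.TwoMajor

/-!
# Major subsections of blocks with `l(b) ≤ 2`

The lattice `Λ` generated by the regular parts of the members of a block `b` of `p`-regular rank at
most two has a reduced basis `φ₁, φ₂`; writing `f_χ = x₁ φ₁ + x₂ φ₂` with `x₁, x₂` in the ring
generated by the roots of unity, we obtain `k(B) ≤ p ^ d`.
-/

set_option linter.unusedSectionVars false
set_option autoImplicit false
set_option linter.style.haveILetI false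

namespace Cfsg.Agent.Lib.Contrib.RankTwo

open Cfsg MonoidAlgebra
open Cfsg.Agent.Lib.Blocks.Local Cfsg.Agent.Lib.Blocks.Central
open Cfsg.Agent.Lib.BlockH.Regular Cfsg.Agent.Lib.BlockP.Defect
open Cfsg.Agent.Lib.Char.Ortho
open Cfsg.Agent.Lib.Contrib.Proj Cfsg.Agent.Lib.Contrib.Cyc
open Cfsg.Agent.Lib.Char.Galois
open Cfsg.Agent.Lib.Contrib.Family
open Cfsg.Agent.Lib.Contrib.Sec Cfsg.Agent.Lib.Contrib.Major
open scoped ComplexConjugate

universe u

section Arith

variable {r : ℕ} [NeZero r] {ι : Type*} [Fintype ι]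

/-- The bound for a reduced form with `β = 0`. -/
theorem card_le_diag {x y : ι → ℂ} (hx : ∀ i, x i ∈ Zr r) {P : ℕ} (hP : 0 < P) {a : ℤ}
    (hy : ∀ i, y i = (a : ℂ) * conj (x i))
    (s : ∑ i, y i * conj (y i) = (P : ℂ) * a) (hne : ∀ i, y i ≠ 0) :
    Fintype.card ι ≤ P := by
  have hr : r ≠ 0 := NeZero.ne r
  by_cases hι : IsEmpty ι
  · simp
  obtain ⟨i₀⟩ := not_isEmpty_iff.mp hι
  have ha : (a : ℂ) ≠ 0 := by
    intro h0
    apply hne i₀
    rw [hy, h0, zero_mul]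
  have hx0 : ∀ i, x i ≠ 0 := by
    intro i h0
    apply hne i
    rw [hy, h0, map_zero, mul_zero]
  have h1 : (a : ℂ) * ∑ i, x i * conj (x i) = P := by
    apply mul_left_cancel₀ ha
    rw [← mul_assoc, Finset.mul_sum, mul_comm (a : ℂ) (P : ℂ), ← s]
    refine Fintype.sum_congr _ _ fun i => ?_
    rw [hy]
    simp only [map_mul, map_intCast, Complex.conj_conj]
    ring
  have hK : ∀ i, x i * conj (x i) ∈ Kn r := fun i =>
    mul_mem (mem_Kn_of_mem_Zr hr (hx i)) (mem_Kn_of_mem_Zr hr (conj_mem_Zr hr (hx i)))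
  have h2 : (a : ℂ) * ((∑ i, nrm r (x i) : ℝ) : ℂ) = P := by
    push_cast
    simp only [nrm_cast (hx _)]
    rw [← avg_sum _ fun i _ => hK i, ← avg_intCast_mul r _ (sum_mem fun i _ => hK i), h1, avg_natCast]
  have h3 : (a : ℝ) * ∑ i, nrm r (x i) = P := by
    have := congrArg Complex.re h2
    simpa using this
  have h4 : ∑ _i : ι, (1 : ℝ) ≤ ∑ i, nrm r (x i) :=
    Finset.sum_le_sum fun i _ => one_le_nrm (hx i) (hx0 i)
  have h5 : (Fintype.card ι : ℝ) ≤ ∑ i, nrm r (x i) := by simpa using h4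
  have hP' : (0 : ℝ) < P := by exact_mod_cast hP
  have hcard : (0 : ℝ) < Fintype.card ι := by
    exact_mod_cast Fintype.card_pos_iff.mpr ⟨i₀⟩
  have ha1 : (0 : ℝ) < a := by
    by_contra hc
    push Not at hc
    have h6 : (a : ℝ) * ∑ i, nrm r (x i) ≤ 0 :=
      mul_nonpos_of_nonpos_of_nonneg hc (by linarith)
    linarith
  have ha2 : (1 : ℝ) ≤ a := by exact_mod_cast (by exact_mod_cast ha1 : (0 : ℤ) < a)
  have h7 : (Fintype.card ι : ℝ) ≤ P := by
    calc (Fintype.card ι : ℝ) ≤ ∑ i, nrm r (x i) := h5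
      _ ≤ a * ∑ i, nrm r (x i) := by nlinarith
      _ = P := h3
  exact_mod_cast h7

/-- The bound for a reduced form. -/
theorem card_le_of_reduced {x₁ x₂ y₁ y₂ : ι → ℂ} (hx₁ : ∀ i, x₁ i ∈ Zr r) (hx₂ : ∀ i, x₂ i ∈ Zr r)
    {P : ℕ} (hP : 0 < P) {a β c : ℤ} (h0 : 0 ≤ β) (h1 : 2 * β ≤ c) (h2 : c ≤ a)
    (hy₁ : ∀ i, y₁ i = (a : ℂ) * conj (x₁ i) - (β : ℂ) * conj (x₂ i))
    (hy₂ : ∀ i, y₂ i = -(β : ℂ) * conj (x₁ i) + (c : ℂ) * conj (x₂ i))
    (s11 : ∑ i, y₁ i * conj (y₁ i) = (P : ℂ) * a)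
    (s12 : ∑ i, y₁ i * conj (y₂ i) = -(P : ℂ) * β)
    (s22 : ∑ i, y₂ i * conj (y₂ i) = (P : ℂ) * c)
    (hne : (∀ i, y₁ i ≠ 0) ∨ (∀ i, y₂ i ≠ 0)) :
    Fintype.card ι ≤ P := by
  have hr : r ≠ 0 := NeZero.ne r
  by_cases hβ : β = 0
  · subst hβ
    simp only [Int.cast_zero, zero_mul, sub_zero, neg_zero, zero_add] at hy₁ hy₂
    rcases hne with hne | hne
    · exact card_le_diag hx₁ hP hy₁ s11 hne
    · exact card_le_diag hx₂ hP hy₂ s22 hne
  have hβ1 : 1 ≤ β := by omega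
  have hc2 : 2 ≤ c := by omega
  set Δ : ℤ := a * c - β ^ 2 with hΔ
  have hΔpos : 0 < Δ := by
    rw [hΔ]
    nlinarith
  have hΔc : (Δ : ℂ) = (a : ℂ) * c - (β : ℂ) ^ 2 := by
    rw [hΔ]
    push_cast
    ring
  have hΔ0 : (Δ : ℂ) ≠ 0 := by exact_mod_cast hΔpos.ne'
  have s21 : ∑ i, y₂ i * conj (y₁ i) = -(P : ℂ) * β := by
    have h3 := congrArg conj s12
    simp only [map_sum, map_mul, Complex.conj_conj, map_neg, Complex.conj_natCast, map_intCast] at h3
    rw [← h3]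
    refine Fintype.sum_congr _ _ fun i => ?_
    ring
  have hnz : ∀ i, x₁ i ≠ 0 ∨ x₂ i ≠ 0 := by
    intro i
    by_contra hc'
    push Not at hc'
    rcases hne with hne | hne
    · apply hne i
      rw [hy₁, hc'.1, hc'.2]
      simp
    · apply hne i
      rw [hy₂, hc'.1, hc'.2]
      simp
  set T : ι → ℂ := fun i => x₁ i * conj (x₁ i) + x₂ i * conj (x₂ i) +
    (x₁ i - x₂ i) * conj (x₁ i - x₂ i) with hT
  have hX1 : ∀ i, (Δ : ℂ) * conj (x₁ i) = (c : ℂ) * y₁ i + (β : ℂ) * y₂ i := by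
    intro i
    rw [hy₁, hy₂, hΔc]
    ring
  have hX2 : ∀ i, (Δ : ℂ) * conj (x₂ i) = (β : ℂ) * y₁ i + (a : ℂ) * y₂ i := by
    intro i
    rw [hy₁, hy₂, hΔc]
    ring
  have hXc1 : ∀ i, (Δ : ℂ) * x₁ i = (c : ℂ) * conj (y₁ i) + (β : ℂ) * conj (y₂ i) := by
    intro i
    have := congrArg conj (hX1 i)
    simpa using this
  have hXc2 : ∀ i, (Δ : ℂ) * x₂ i = (β : ℂ) * conj (y₁ i) + (a : ℂ) * conj (y₂ i) := by
    intro i
    have := congrArg conj (hX2 i)
    simpa using this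
  have hTi : ∀ i, (Δ : ℂ) * (Δ : ℂ) * T i =
      ((c : ℂ) ^ 2 + (β : ℂ) ^ 2 + ((c : ℂ) - β) ^ 2) * (y₁ i * conj (y₁ i)) +
      ((c : ℂ) * β + a * β + ((c : ℂ) - β) * ((β : ℂ) - a)) * (y₁ i * conj (y₂ i)) +
      ((c : ℂ) * β + a * β + ((c : ℂ) - β) * ((β : ℂ) - a)) * (y₂ i * conj (y₁ i)) +
      ((β : ℂ) ^ 2 + (a : ℂ) ^ 2 + ((β : ℂ) - a) ^ 2) * (y₂ i * conj (y₂ i)) := by
    intro i
    have e1 : (Δ : ℂ) * (Δ : ℂ) * T i = ((Δ : ℂ) * x₁ i) * ((Δ : ℂ) * conj (x₁ i)) +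
        ((Δ : ℂ) * x₂ i) * ((Δ : ℂ) * conj (x₂ i)) +
        ((Δ : ℂ) * x₁ i - (Δ : ℂ) * x₂ i) * ((Δ : ℂ) * conj (x₁ i) - (Δ : ℂ) * conj (x₂ i)) := by
      simp only [hT, map_sub]
      ring
    rw [e1, hX1, hX2, hXc1, hXc2]
    ring
  have hTs : (Δ : ℂ) * ∑ i, T i = 2 * (P : ℂ) * ((a : ℂ) + c - β) := by
    apply mul_left_cancel₀ hΔ0
    rw [← mul_assoc, Finset.mul_sum]
    simp only [hTi]
    rw [Finset.sum_add_distrib, Finset.sum_add_distrib, Finset.sum_add_distrib,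
      ← Finset.mul_sum, ← Finset.mul_sum, ← Finset.mul_sum, ← Finset.mul_sum, s11, s12, s21, s22, hΔc]
    ring
  have hKm : ∀ {z : ℂ}, z ∈ Zr r → z * conj z ∈ Kn r := fun {z} hz =>
    mul_mem (mem_Kn_of_mem_Zr hr hz) (mem_Kn_of_mem_Zr hr (conj_mem_Zr hr hz))
  have hsub : ∀ i, x₁ i - x₂ i ∈ Zr r := fun i => sub_mem (hx₁ i) (hx₂ i)
  have hTK : ∀ i, T i ∈ Kn r := fun i =>
    add_mem (add_mem (hKm (hx₁ i)) (hKm (hx₂ i))) (hKm (hsub i))
  set W : ι → ℝ := fun i => nrm r (x₁ i) + nrm r (x₂ i) + nrm r (x₁ i - x₂ i) with hW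
  have hWT : ∀ i, ((W i : ℝ) : ℂ) = avg r (T i) := by
    intro i
    simp only [hW, hT]
    push_cast
    rw [nrm_cast (hx₁ i), nrm_cast (hx₂ i), nrm_cast (hsub i),
      avg_add (add_mem (hKm (hx₁ i)) (hKm (hx₂ i))) (hKm (hsub i)),
      avg_add (hKm (hx₁ i)) (hKm (hx₂ i))]
  have hWs : (Δ : ℝ) * ∑ i, W i = 2 * (P : ℝ) * ((a : ℝ) + c - β) := by
    apply Complex.ofReal_injective
    push_cast
    simp only [hWT]
    rw [← avg_sum _ fun i _ => hTK i, ← avg_intCast_mul r _ (sum_mem fun i _ => hTK i), hTs]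
    have e2 : (2 : ℂ) * (P : ℂ) * ((a : ℂ) + c - β) =
        ((2 * (P : ℤ) * (a + c - β) : ℤ) : ℂ) := by
      push_cast
      ring
    rw [e2]
    have e3 : avg r (((2 * (P : ℤ) * (a + c - β) : ℤ) : ℂ)) =
        ((2 * (P : ℤ) * (a + c - β) : ℤ) : ℂ) := by
      have := avg_intCast_mul r (2 * (P : ℤ) * (a + c - β)) (one_mem (Kn r))
      rw [mul_one] at this
      rw [this, avg_one, mul_one]
    rw [e3]
  have hW2 : ∀ i, 2 ≤ W i := by
    intro i
    have n1 := nrm_nonneg r (x₁ i)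
    have n2 := nrm_nonneg r (x₂ i)
    have n3 := nrm_nonneg r (x₁ i - x₂ i)
    simp only [hW]
    by_cases c1 : x₁ i = 0
    · have c2 : x₂ i ≠ 0 := (hnz i).resolve_left (not_not.mpr c1)
      have c3 : x₁ i - x₂ i ≠ 0 := by
        rw [c1, zero_sub]
        exact neg_ne_zero.mpr c2
      have := one_le_nrm (hx₂ i) c2
      have := one_le_nrm (hsub i) c3
      linarith
    · have m1 := one_le_nrm (hx₁ i) c1
      by_cases c2 : x₂ i = 0
      · have c3 : x₁ i - x₂ i ≠ 0 := by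
          rw [c2, sub_zero]
          exact c1
        have := one_le_nrm (hsub i) c3
        linarith
      · have := one_le_nrm (hx₂ i) c2
        linarith
  have h3 : 2 * (Fintype.card ι : ℝ) ≤ ∑ i, W i := by
    have h4 : ∑ _i : ι, (2 : ℝ) ≤ ∑ i, W i := Finset.sum_le_sum fun i _ => hW2 i
    simpa [mul_comm] using h4
  have hΔR : (0 : ℝ) < Δ := by exact_mod_cast hΔpos
  have hineq : a + c - β ≤ Δ := by
    rw [hΔ]
    nlinarith [mul_nonneg (sub_nonneg.mpr h2) (sub_nonneg.mpr h1), mul_nonneg (sub_nonneg.mpr h1) (sub_nonneg.mpr h1),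
      mul_nonneg (sub_nonneg.mpr hβ1) (sub_nonneg.mpr hβ1), mul_nonneg h0 (sub_nonneg.mpr hβ1)]
  have hineqR : (a : ℝ) + c - β ≤ Δ := by exact_mod_cast hineq
  have hPR : (0 : ℝ) < P := by exact_mod_cast hP
  have h5 : (Δ : ℝ) * (2 * (Fintype.card ι : ℝ)) ≤ (Δ : ℝ) * (2 * (P : ℝ)) := by
    calc (Δ : ℝ) * (2 * (Fintype.card ι : ℝ)) ≤ (Δ : ℝ) * ∑ i, W i :=
          mul_le_mul_of_nonneg_left h3 hΔR.le
      _ = 2 * (P : ℝ) * ((a : ℝ) + c - β) := hWs
      _ ≤ 2 * (P : ℝ) * Δ := mul_le_mul_of_nonneg_left hineqR (by positivity)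
      _ = _ := by ring
  have h6 : (Fintype.card ι : ℝ) ≤ P := by
    have := le_of_mul_le_mul_left h5 hΔR
    linarith
  exact_mod_cast h6

end Arith

section Lattice

variable {K : Type u} [Group K] [Fintype K] [Fintype (IrrCharacter K)]

theorem classInner_add_left' (u v w : K → ℂ) :
    classInner (u + v) w = classInner u w + classInner v w := by
  simp only [classInner_def, Pi.add_apply, add_mul, Finset.sum_add_distrib, mul_add]

theorem classInner_add_right' (u v w : K → ℂ) :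
    classInner w (u + v) = classInner w u + classInner w v := by
  simp only [classInner_def, Pi.add_apply, map_add, mul_add, Finset.sum_add_distrib]

theorem classInner_zsmul_left' (n : ℤ) (u w : K → ℂ) :
    classInner (n • u) w = (n : ℂ) * classInner u w := by
  have e : ∀ c, (n • u) c = (n : ℂ) * u c := fun c => by simp
  simp only [classInner_def, e, Finset.mul_sum]
  refine Fintype.sum_congr _ _ fun c => ?_
  ring

theorem classInner_zsmul_right' (n : ℤ) (u w : K → ℂ) :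
    classInner w (n • u) = (n : ℂ) * classInner w u := by
  have e : ∀ c, (n • u) c = (n : ℂ) * u c := fun c => by simp
  simp only [classInner_def, e, Finset.mul_sum, map_mul, map_intCast]
  refine Fintype.sum_congr _ _ fun c => ?_
  ring

theorem eq_zero_of_classInner_self {u : K → ℂ} (h : classInner u u = 0) : u = 0 := by
  rw [classInner_def] at h
  have hc : (Nat.card K : ℂ)⁻¹ ≠ 0 := inv_ne_zero (Nat.cast_ne_zero.mpr Nat.card_pos.ne')
  have h1 := (mul_eq_zero.mp h).resolve_left hc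
  simp only [Complex.mul_conj] at h1
  have h2 : ∑ x, Complex.normSq (u x) = 0 := by exact_mod_cast h1
  have h3 := (Finset.sum_eq_zero_iff_of_nonneg (fun x _ => Complex.normSq_nonneg _)).mp h2
  funext x
  exact Complex.normSq_eq_zero.mp (h3 x (Finset.mem_univ x))

theorem classInner_self_re_nonneg (u : K → ℂ) : 0 ≤ (classInner u u).re := by
  rw [classInner_def]
  simp only [Complex.mul_conj]
  have h1 : (Nat.card K : ℂ)⁻¹ = (((Nat.card K : ℝ)⁻¹ : ℝ) : ℂ) := by
    push_cast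
    rfl
  have h2 : (∑ x, ((Complex.normSq (u x) : ℝ) : ℂ)) = ((∑ x, Complex.normSq (u x) : ℝ) : ℂ) := by
    push_cast
    rfl
  rw [h1, h2, ← Complex.ofReal_mul, Complex.ofReal_re]
  exact mul_nonneg (by positivity) (Finset.sum_nonneg fun _ _ => Complex.normSq_nonneg _)

theorem aux_pair {V : Type*} [AddCommGroup V] (L : Submodule ℤ V) :
    ∀ (r : ℕ) (v : Fin r → V), r ≤ 2 → (∀ i, v i ∈ L) →
      ∃ φ₁ φ₂ : V, φ₁ ∈ L ∧ φ₂ ∈ L ∧ ∀ c : Fin r → ℤ, ∃ d₁ d₂ : ℤ,
        ∑ i, c i • v i = d₁ • φ₁ + d₂ • φ₂ := by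
  rintro (_ | _ | _ | r) v hr hv
  · exact ⟨0, 0, L.zero_mem, L.zero_mem, fun c => ⟨0, 0, by simp⟩⟩
  · exact ⟨v 0, 0, hv 0, L.zero_mem, fun c => ⟨c 0, 0, by simp⟩⟩
  · exact ⟨v 0, v 1, hv 0, hv 1, fun c => ⟨c 0, c 1, by simp [Fin.sum_univ_two]⟩⟩
  · omega

/-- The form is integral on the lattice. -/
theorem int_on_span {ι : Type*} (g : ι → K → ℂ) {P : ℕ}
    (hint : ∀ i j, ∃ n : ℤ, (P : ℂ) * classInner (g i) (g j) = n) :
    ∀ u ∈ Submodule.span ℤ (Set.range g), ∀ v ∈ Submodule.span ℤ (Set.range g),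
      ∃ n : ℤ, (P : ℂ) * classInner u v = n := by
  intro u hu v hv
  induction hu using Submodule.span_induction with
  | mem u hu =>
    obtain ⟨i, rfl⟩ := hu
    induction hv using Submodule.span_induction with
    | mem v hv =>
      obtain ⟨j, rfl⟩ := hv
      exact hint i j
    | zero => exact ⟨0, by simp [classInner_def]⟩
    | add a b _ _ ha hb =>
      obtain ⟨n, hn⟩ := ha
      obtain ⟨m, hm⟩ := hb
      exact ⟨n + m, by rw [classInner_add_right', mul_add, hn, hm]; push_cast; ring⟩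
    | smul c a _ ha =>
      obtain ⟨n, hn⟩ := ha
      exact ⟨c * n, by rw [classInner_zsmul_right', mul_left_comm, hn]; push_cast; ring⟩
  | zero => exact ⟨0, by simp [classInner_def]⟩
  | add a b _ _ ha hb =>
    obtain ⟨n, hn⟩ := ha
    obtain ⟨m, hm⟩ := hb
    exact ⟨n + m, by rw [classInner_add_left', mul_add, hn, hm]; push_cast; ring⟩
  | smul c a _ ha =>
    obtain ⟨n, hn⟩ := ha
    exact ⟨c * n, by rw [classInner_zsmul_left', mul_left_comm, hn]; push_cast; ring⟩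

/-- A lattice of rank at most two in the space of functions, with a rational form, has two generators. -/
theorem exists_generating_pair {ι : Type*} [Fintype ι] (g : ι → K → ℂ) {P : ℕ} (hP : P ≠ 0)
    (hint : ∀ i j, ∃ n : ℤ, (P : ℂ) * classInner (g i) (g j) = n)
    (hr : Module.finrank ℂ (Submodule.span ℂ (Set.range g)) ≤ 2) :
    ∃ φ₁ φ₂ : K → ℂ, φ₁ ∈ Submodule.span ℤ (Set.range g) ∧ φ₂ ∈ Submodule.span ℤ (Set.range g) ∧
      ∀ u ∈ Submodule.span ℤ (Set.range g), ∃ d₁ d₂ : ℤ, u = d₁ • φ₁ + d₂ • φ₂ := by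
  classical
  set L := Submodule.span ℤ (Set.range g) with hL
  have hLint : ∀ u ∈ L, ∀ v ∈ L, ∃ n : ℤ, (P : ℂ) * classInner u v = n := int_on_span g hint
  haveI hfin : Module.Finite ℤ L := Module.Finite.span_of_finite ℤ (Set.finite_range g)
  let b := Module.finBasis ℤ L
  set r := Module.finrank ℤ L with hrdef
  let v : Fin r → K → ℂ := fun i => (b i : K → ℂ)
  have hvL : ∀ i, v i ∈ L := fun i => (b i).2
  choose Γ hΓ using fun i j => hLint (v i) (hvL i) (v j) (hvL j)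
  have hP0 : (P : ℂ) ≠ 0 := Nat.cast_ne_zero.mpr hP
  have hdet : (Matrix.of Γ).det ≠ 0 := by
    intro h0
    obtain ⟨w, hw0, hw⟩ := Matrix.exists_mulVec_eq_zero_iff.mpr h0
    apply hw0
    have hb := b.linearIndependent
    rw [Fintype.linearIndependent_iff] at hb
    funext i
    refine hb w ?_ i
    have hu : (∑ j, w j • v j) = 0 := by
      apply eq_zero_of_classInner_self
      have e1 : ∀ u : K → ℂ, classInner u (∑ j, w j • v j) = ∑ j, (w j : ℂ) * classInner u (v j) := by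
        intro u
        have e2 : ∀ s : Finset (Fin r), classInner u (∑ j ∈ s, w j • v j) =
            ∑ j ∈ s, (w j : ℂ) * classInner u (v j) := by
          intro s
          induction s using Finset.induction_on with
          | empty => simp [classInner_def]
          | insert a s ha ih =>
            rw [Finset.sum_insert ha, Finset.sum_insert ha, classInner_add_right',
              classInner_zsmul_right', ih]
        exact e2 Finset.univ
      have e3 : ∀ u : K → ℂ, classInner (∑ j, w j • v j) u = ∑ j, (w j : ℂ) * classInner (v j) u := by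
        intro u
        have e2 : ∀ s : Finset (Fin r), classInner (∑ j ∈ s, w j • v j) u =
            ∑ j ∈ s, (w j : ℂ) * classInner (v j) u := by
          intro s
          induction s using Finset.induction_on with
          | empty => simp [classInner_def]
          | insert a s ha ih =>
            rw [Finset.sum_insert ha, Finset.sum_insert ha, classInner_add_left',
              classInner_zsmul_left', ih]
        exact e2 Finset.univ
      have e4 : (P : ℂ) * classInner (∑ j, w j • v j) (∑ j, w j • v j) = 0 := by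
        rw [e3, Finset.mul_sum]
        refine Finset.sum_eq_zero fun j _ => ?_
        rw [e1, mul_left_comm, Finset.mul_sum]
        have e5 : ∑ j', (P : ℂ) * ((w j' : ℂ) * classInner (v j) (v j')) =
            (((Matrix.of Γ).mulVec w j : ℤ) : ℂ) := by
          rw [Matrix.mulVec, dotProduct]
          push_cast
          refine Fintype.sum_congr _ _ fun j' => ?_
          rw [mul_left_comm, hΓ]
          simp [mul_comm]
        rw [e5, hw]
        simp
      exact (mul_eq_zero.mp e4).resolve_left hP0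
    apply Subtype.ext
    have e6 : ((∑ j, w j • b j : L) : K → ℂ) = ∑ j, w j • v j := by
      push_cast
      rfl
    rw [e6, hu]
    rfl
  have hind : LinearIndependent ℂ v := by
    rw [Fintype.linearIndependent_iff]
    intro c hc i
    have hdet' : ((Matrix.of Γ).transpose.map (Int.castRingHom ℂ)).det ≠ 0 := by
      have : ((Matrix.of Γ).transpose.map (Int.castRingHom ℂ)).det = (Int.castRingHom ℂ) ((Matrix.of Γ).transpose.det) :=
        (RingHom.map_det _ _).symm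
      rw [this, Matrix.det_transpose]
      simpa using hdet
    have hm : ((Matrix.of Γ).transpose.map (Int.castRingHom ℂ)).mulVec c = 0 := by
      funext i'
      rw [Matrix.mulVec, dotProduct]
      have e7 : ∀ s : Finset (Fin r), classInner (∑ j ∈ s, c j • v j) (v i') =
          ∑ j ∈ s, c j * classInner (v j) (v i') := by
        intro s
        induction s using Finset.induction_on with
        | empty => simp [classInner_def]
        | insert a s ha ih =>
          rw [Finset.sum_insert ha, Finset.sum_insert ha, classInner_add_left', ih]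
          congr 1
          simp only [classInner_def, Pi.smul_apply, smul_eq_mul, Finset.mul_sum]
          refine Fintype.sum_congr _ _ fun x => ?_
          ring
      have e8 := e7 Finset.univ
      rw [hc] at e8
      have e9 : classInner (0 : K → ℂ) (v i') = 0 := by simp [classInner_def]
      rw [e9] at e8
      have e10 : ∑ j, c j * ((P : ℂ) * classInner (v j) (v i')) = 0 := by
        have h9 : (P : ℂ) * ∑ j, c j * classInner (v j) (v i') = 0 := by rw [← e8, mul_zero]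
        rw [Finset.mul_sum] at h9
        calc _ = ∑ j, (P : ℂ) * (c j * classInner (v j) (v i')) :=
              Fintype.sum_congr _ _ fun j => by ring
          _ = 0 := h9
      simp only [hΓ] at e10
      simp only [Pi.zero_apply]
      rw [← e10]
      refine Fintype.sum_congr _ _ fun j => ?_
      simp [mul_comm]
    have := Matrix.eq_zero_of_mulVec_eq_zero hdet' hm
    rw [this]
    rfl
  set U := Submodule.span ℂ (Set.range g) with hU
  have hLU : ∀ u ∈ L, u ∈ U := by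
    intro u hu
    induction hu using Submodule.span_induction with
    | mem u hu => exact Submodule.subset_span hu
    | zero => exact U.zero_mem
    | add a b _ _ ha hb => exact U.add_mem ha hb
    | smul c a _ ha =>
      rw [show c • a = (c : ℂ) • a by
        funext x
        simp]
      exact U.smul_mem _ ha
  let v' : Fin r → U := fun i => ⟨v i, hLU _ (hvL i)⟩
  have hind' : LinearIndependent ℂ v' :=
    LinearIndependent.of_comp U.subtype (by
      have e : (U.subtype ∘ v') = v := rfl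
      rw [e]
      exact hind)
  haveI : FiniteDimensional ℂ U := FiniteDimensional.span_of_finite ℂ (Set.finite_range g)
  have hcard := hind'.fintype_card_le_finrank
  rw [Fintype.card_fin] at hcard
  have hr2 : r ≤ 2 := hcard.trans hr
  obtain ⟨φ₁, φ₂, h₁, h₂, hφ⟩ := aux_pair L r v hr2 hvL
  refine ⟨φ₁, φ₂, h₁, h₂, fun u hu => ?_⟩
  obtain ⟨d₁, d₂, hd⟩ := hφ (fun i => b.repr ⟨u, hu⟩ i)
  refine ⟨d₁, d₂, ?_⟩
  rw [← hd]
  have h3 := b.sum_repr ⟨u, hu⟩
  have h4 := congrArg (fun w : L => (w : K → ℂ)) h3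
  simp only [AddSubmonoidClass.coe_finsetSum, Submodule.coe_smul] at h4
  exact h4.symm

/-- Gauss reduction. -/
theorem exists_reduced {L : Submodule ℤ (K → ℂ)} {P : ℕ} (N : ℕ) :
    ∀ φ₁ φ₂ : K → ℂ, φ₁ ∈ L → φ₂ ∈ L → (∀ u ∈ L, ∃ d₁ d₂ : ℤ, u = d₁ • φ₁ + d₂ • φ₂) →
      ∀ a b c : ℤ, (P : ℂ) * classInner φ₁ φ₁ = a → (P : ℂ) * classInner φ₁ φ₂ = b →
        (P : ℂ) * classInner φ₂ φ₂ = c → a + c < N →
      ∃ ψ₁ ψ₂ : K → ℂ, ψ₁ ∈ L ∧ ψ₂ ∈ L ∧ (∀ u ∈ L, ∃ d₁ d₂ : ℤ, u = d₁ • ψ₁ + d₂ • ψ₂) ∧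
        ∃ a' β c' : ℤ, (P : ℂ) * classInner ψ₁ ψ₁ = a' ∧ (P : ℂ) * classInner ψ₁ ψ₂ = -(β : ℂ) ∧
          (P : ℂ) * classInner ψ₂ ψ₂ = c' ∧ 0 ≤ β ∧ 2 * β ≤ c' ∧ c' ≤ a' := by
  have hpos : ∀ u : K → ℂ, ∀ n : ℤ, (P : ℂ) * classInner u u = n → 0 ≤ n := by
    intro u n hn
    have h1 := congrArg Complex.re hn
    rw [Complex.intCast_re, Complex.mul_re, Complex.natCast_re, Complex.natCast_im, zero_mul, sub_zero] at h1
    have h2 : (0 : ℝ) ≤ n := by
      rw [← h1]
      exact mul_nonneg (by positivity) (classInner_self_re_nonneg u)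
    exact_mod_cast h2
  have hsym : ∀ u v : K → ℂ, ∀ n : ℤ, (P : ℂ) * classInner u v = n →
      (P : ℂ) * classInner v u = n := by
    intro u v n hn
    have h1 := congrArg conj hn
    rw [map_mul, conj_classInner, Complex.conj_natCast, map_intCast] at h1
    exact h1
  -- the shift
  have hshift : ∀ (φ₁ φ₂ : K → ℂ) (a b c n : ℤ), (P : ℂ) * classInner φ₁ φ₁ = a →
      (P : ℂ) * classInner φ₁ φ₂ = b → (P : ℂ) * classInner φ₂ φ₂ = c →
      (P : ℂ) * classInner (φ₁ + n • φ₂) (φ₁ + n • φ₂) = ((a + 2 * n * b + n ^ 2 * c : ℤ) : ℂ) ∧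
      (P : ℂ) * classInner (φ₁ + n • φ₂) φ₂ = ((b + n * c : ℤ) : ℂ) := by
    intro φ₁ φ₂ a b c n ha hb hc
    have hb' := hsym _ _ _ hb
    constructor
    · rw [classInner_add_left', classInner_add_right', classInner_add_right', classInner_zsmul_left',
        classInner_zsmul_left', classInner_zsmul_right', classInner_zsmul_right']
      push_cast
      rw [← ha, ← hb, ← hc]
      rw [← hb] at hb'
      linear_combination (n : ℂ) * hb'
    · rw [classInner_add_left', classInner_zsmul_left']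
      push_cast
      rw [← hb, ← hc]
      ring
  induction N with
  | zero =>
    intro φ₁ φ₂ _ _ _ a b c ha _ hc hN
    have h1 := hpos _ _ ha
    have h2 := hpos _ _ hc
    push_cast at hN
    omega
  | succ N ih =>
    -- the step under the assumption `c ≤ a`
    have step : ∀ φ₁ φ₂ : K → ℂ, φ₁ ∈ L → φ₂ ∈ L → (∀ u ∈ L, ∃ d₁ d₂ : ℤ, u = d₁ • φ₁ + d₂ • φ₂) →
        ∀ a b c : ℤ, (P : ℂ) * classInner φ₁ φ₁ = a → (P : ℂ) * classInner φ₁ φ₂ = b →
          (P : ℂ) * classInner φ₂ φ₂ = c → a + c < (N + 1 : ℕ) → c ≤ a →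
        ∃ ψ₁ ψ₂ : K → ℂ, ψ₁ ∈ L ∧ ψ₂ ∈ L ∧ (∀ u ∈ L, ∃ d₁ d₂ : ℤ, u = d₁ • ψ₁ + d₂ • ψ₂) ∧
          ∃ a' β c' : ℤ, (P : ℂ) * classInner ψ₁ ψ₁ = a' ∧ (P : ℂ) * classInner ψ₁ ψ₂ = -(β : ℂ) ∧
            (P : ℂ) * classInner ψ₂ ψ₂ = c' ∧ 0 ≤ β ∧ 2 * β ≤ c' ∧ c' ≤ a' := by
      intro φ₁ φ₂ h₁ h₂ hgen a b c ha hb hc hN hca
      by_cases hb1 : c < 2 * b
      · -- replace `φ₁` by `φ₁ - φ₂`
        obtain ⟨e1, e2⟩ := hshift φ₁ φ₂ a b c (-1) ha hb hc
        refine ih (φ₁ + (-1 : ℤ) • φ₂) φ₂ (L.add_mem h₁ (L.smul_mem _ h₂)) h₂ ?_ _ _ c e1 e2 hc ?_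
        · intro u hu
          obtain ⟨d₁, d₂, hd⟩ := hgen u hu
          refine ⟨d₁, d₁ + d₂, ?_⟩
          rw [hd]
          module
        · push_cast at hN ⊢
          nlinarith
      by_cases hb2 : 2 * b < -c
      · obtain ⟨e1, e2⟩ := hshift φ₁ φ₂ a b c 1 ha hb hc
        refine ih (φ₁ + (1 : ℤ) • φ₂) φ₂ (L.add_mem h₁ (L.smul_mem _ h₂)) h₂ ?_ _ _ c e1 e2 hc ?_
        · intro u hu
          obtain ⟨d₁, d₂, hd⟩ := hgen u hu
          refine ⟨d₁, d₂ - d₁, ?_⟩
          rw [hd]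
          module
        · push_cast at hN ⊢
          nlinarith
      by_cases hb3 : b ≤ 0
      · refine ⟨φ₁, φ₂, h₁, h₂, hgen, a, -b, c, ha, ?_, hc, by omega, by omega, hca⟩
        rw [hb]
        push_cast
        ring
      · refine ⟨(-1 : ℤ) • φ₁, φ₂, L.smul_mem _ h₁, h₂, ?_, a, b, c, ?_, ?_, hc, by omega, by omega, hca⟩
        · intro u hu
          obtain ⟨d₁, d₂, hd⟩ := hgen u hu
          refine ⟨-d₁, d₂, ?_⟩
          rw [hd]
          module
        · rw [classInner_zsmul_left', classInner_zsmul_right', ← ha]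
          push_cast
          ring
        · rw [classInner_zsmul_left', ← hb]
          push_cast
          ring
    intro φ₁ φ₂ h₁ h₂ hgen a b c ha hb hc hN
    rcases le_total c a with hca | hca
    · exact step φ₁ φ₂ h₁ h₂ hgen a b c ha hb hc hN hca
    · refine step φ₂ φ₁ h₂ h₁ ?_ c b a hc (hsym _ _ _ hb) ha (by omega) hca
      intro u hu
      obtain ⟨d₁, d₂, hd⟩ := hgen u hu
      refine ⟨d₂, d₁, ?_⟩
      rw [hd]
      module

end Lattice

section Main

variable {G : Type u} [Group G] [Fintype G] [Fintype (IrrCharacter G)] {p : ℕ} {M : Ideal AlgInt}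
  {x : G} [hMp : M.IsPrime]
  [Fintype (Subgroup.centralizer ({x} : Set G))] [Fintype (IrrCharacter (Subgroup.centralizer ({x} : Set G)))]
  [Fact p.Prime]

/-- The valuation formula for a class function fixed by the projection. -/
theorem exists_omega_of (hM : IsPModular p M) {B : Set (IrrCharacter G)}
    {b : Set (IrrCharacter (Subgroup.centralizer ({x} : Set G)))}
    (hb : IsPBlock M b) (hbB : B.Nonempty) (hq : blockDefect p b = blockDefect p B)
    {f : Subgroup.centralizer ({x} : Set G) → ℂ}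
    (hcl : IsClassFunction (Subgroup.centralizer ({x} : Set G)) f)
    (hl : ∀ c, MemLocalRing M (f c)) (hPP : PP p b f = f) :
    ∃ Z : Subalgebra.center ℂ (GA G), Z ∈ localCenter M G ∧ ∀ ψ ∈ B,
      ∃ t : ℕ, ¬ p ∣ t ∧
      ((p ^ blockDefect p b : ℕ) : ℂ) * classInner f (PP p b (vt x ψ)) /
          ((p ^ blockHeight p B (ψ : G → ℂ) : ℕ) : ℂ) =
        (t : ℂ) * ((Nat.card G / p ^ (Nat.card G).factorization p : ℕ) : ℂ)⁻¹ * omegaHom ψ Z := by
  classical
  have hp : p.Prime := Fact.out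
  obtain ⟨Z, hZ, hω⟩ := exists_central (M := M) f hcl hl
  refine ⟨Z, hZ, fun ψ hψ => ?_⟩
  set deg := charDegree (ψ : G → ℂ) with hdeg
  have hdeg0 : deg ≠ 0 := Cfsg.Agent.Lib.Blocks.Heights.charDegree_ne_zero_irr ψ
  refine ⟨deg / p ^ deg.factorization p, Nat.not_dvd_ordCompl hp hdeg0, ?_⟩
  set t := deg / p ^ deg.factorization p with ht
  set e := minExp p B with he
  set h := blockHeight p B (ψ : G → ℂ) with hh
  have hfac : deg.factorization p = e + h := by
    have h1 : e ≤ deg.factorization p := minExp_le p hψ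
    have h2 : h = deg.factorization p - e := rfl
    omega
  have hψ1 : (ψ : G → ℂ) 1 = ((p ^ e : ℕ) : ℂ) * ((p ^ h : ℕ) : ℂ) * t := by
    rw [Cfsg.Agent.Lib.Blocks.Heights.irr_one_eq, ← Nat.cast_mul, ← Nat.cast_mul, ← pow_add, ← hfac,
      ht, Nat.ordProj_mul_ordCompl_eq_self]
  set a := (Nat.card G).factorization p with ha
  set w := Nat.card G / p ^ a with hw
  have hwp : ¬ p ∣ w := Nat.not_dvd_ordCompl hp Nat.card_pos.ne'
  have hw0 : (w : ℂ) ≠ 0 := Nat.cast_ne_zero.mpr (fun hc => hwp (by rw [hc]; exact dvd_zero p))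
  have hae : e + blockDefect p B = a := by
    obtain ⟨ψ₀, hψ₀⟩ := hbB
    exact Cfsg.Agent.Lib.Blocks.RegPart2.minExp_add_blockDefect hψ₀
  have hcard : (Nat.card G : ℂ) = ((p ^ e : ℕ) : ℂ) * ((p ^ blockDefect p b : ℕ) : ℂ) * (w : ℂ) := by
    rw [hq, ← Nat.cast_mul, ← Nat.cast_mul, ← pow_add, hae, hw, Nat.ordProj_mul_ordCompl_eq_self]
  have hpe : ((p ^ e : ℕ) : ℂ) ≠ 0 := Nat.cast_ne_zero.mpr (pow_ne_zero _ hp.ne_zero)
  have hph : ((p ^ h : ℕ) : ℂ) ≠ 0 := Nat.cast_ne_zero.mpr (pow_ne_zero _ hp.ne_zero)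
  have h3 := hω ψ
  have h5 : classInner f (vt x ψ) = classInner f (PP p b (vt x ψ)) := by
    have := classInner_PP_eq_PP hM hb f (isClassFunction_vt (x := x) ψ)
    rwa [hPP] at this
  rw [h5, hψ1, hcard] at h3
  field_simp
  apply mul_left_cancel₀ hpe
  linear_combination -h3

/-- A class function and its expansion: linearity on the left. -/
theorem classInner_lin_left {K : Type*} [Group K] [Fintype K] (w u v : K → ℂ) (s t : ℂ) :
    classInner (fun y => s * u y + t * v y) w = s * classInner u w + t * classInner v w := by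
  simp only [classInner_def, add_mul, mul_add, Finset.sum_add_distrib, Finset.mul_sum]
  refine congrArg₂ _ (Fintype.sum_congr _ _ fun c => ?_) (Fintype.sum_congr _ _ fun c => ?_) <;> ring

/-- A class function and its expansion: conjugate-linearity on the right. -/
theorem classInner_lin_right {K : Type*} [Group K] [Fintype K] (w u v : K → ℂ) (s t : ℂ) :
    classInner w (fun y => s * u y + t * v y) = conj s * classInner w u + conj t * classInner w v := by
  simp only [classInner_def, map_add, map_mul, mul_add, Finset.sum_add_distrib, Finset.mul_sum]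
  refine congrArg₂ _ (Fintype.sum_congr _ _ fun c => ?_) (Fintype.sum_congr _ _ fun c => ?_) <;> ring

/-- **Brauer's `k(B)` problem for a major subsection of rank at most two.** -/
theorem card_le_of_rank_le_two (hM : IsPModular p M) {k : ℕ} (hk : orderOf x = p ^ k)
    {B : Set (IrrCharacter G)} (hB : IsPBlock M B) [Fintype B]
    {b : Set (IrrCharacter (Subgroup.centralizer ({x} : Set G)))}
    (hb : IsInducedBlock M (Subgroup.centralizer ({x} : Set G)) b B)
    (hq : blockDefect p b = blockDefect p B) (hl : blockRank p b ≤ 2) :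
    Fintype.card B ≤ p ^ blockDefect p b := by
  classical
  have hp : p.Prime := Fact.out
  haveI : NeZero (p ^ k) := ⟨pow_ne_zero _ hp.ne_zero⟩
  have hne := isPBlock_nonempty hB
  set P := p ^ blockDefect p b with hP
  have hP0 : 0 < P := pow_pos hp.pos _
  have hPc : (P : ℂ) ≠ 0 := Nat.cast_ne_zero.mpr hP0.ne'
  -- the lattice
  let g : b → Subgroup.centralizer ({x} : Set G) → ℂ :=
    fun ξ => pRegularPart p ((ξ : IrrCharacter (Subgroup.centralizer ({x} : Set G))) :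
      Subgroup.centralizer ({x} : Set G) → ℂ)
  have hgdef : ∀ ξ : b, g ξ = pRegularPart p ((ξ : IrrCharacter (Subgroup.centralizer ({x} : Set G))) :
      Subgroup.centralizer ({x} : Set G) → ℂ) := fun _ => rfl
  have hint : ∀ i j, ∃ n : ℤ, (P : ℂ) * classInner (g i) (g j) = n := fun i j =>
    exists_int_pairing hM hb.1 i.2 (j : IrrCharacter (Subgroup.centralizer ({x} : Set G)))
  have hrange : Set.range g = (fun χ : IrrCharacter (Subgroup.centralizer ({x} : Set G)) =>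
      pRegularPart p (χ : Subgroup.centralizer ({x} : Set G) → ℂ)) '' b := by
    ext f
    constructor
    · rintro ⟨ξ, rfl⟩
      exact ⟨ξ, ξ.2, rfl⟩
    · rintro ⟨ξ, hξ, rfl⟩
      exact ⟨⟨ξ, hξ⟩, rfl⟩
  have hr : Module.finrank ℂ (Submodule.span ℂ (Set.range g)) ≤ 2 := by
    rw [hrange]
    exact hl
  obtain ⟨φ₀₁, φ₀₂, h₀₁, h₀₂, hgen₀⟩ := exists_generating_pair g hP0.ne' hint hr
  have hLint := int_on_span g hint
  set L := Submodule.span ℤ (Set.range g) with hL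
  have hLsum : ∀ u ∈ L, ∃ c : b → ℤ, u = fun y => ∑ i, (c i : ℂ) * g i y := by
    intro u hu
    obtain ⟨c, hc⟩ := (Submodule.mem_span_range_iff_exists_fun ℤ).mp hu
    refine ⟨c, ?_⟩
    rw [← hc]
    funext y
    rw [Finset.sum_apply]
    refine Fintype.sum_congr _ _ fun i => ?_
    simp
  have hLcl : ∀ u ∈ L, IsClassFunction (Subgroup.centralizer ({x} : Set G)) u := by
    intro u hu
    obtain ⟨c, rfl⟩ := hLsum u hu
    intro y t
    refine Fintype.sum_congr _ _ fun i => ?_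
    rw [hgdef, isClassFunction_pRegularPart p
      (Cfsg.Agent.Lib.Char.Basic.isClassFunction_of_isIrrCharacter
        (i : IrrCharacter (Subgroup.centralizer ({x} : Set G))).2) y t]
  have hLloc : ∀ u ∈ L, ∀ y, MemLocalRing M (u y) := by
    intro u hu y
    obtain ⟨c, rfl⟩ := hLsum u hu
    exact memLocalRing_sum _ _ fun i _ =>
      memLocalRing_mul (memLocalRing_intCast _) (memLocalRing_regular _ y)
  have hLPP : ∀ u ∈ L, PP p b u = u := by
    intro u hu
    obtain ⟨c, rfl⟩ := hLsum u hu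
    funext y
    have e1 := PP_linear (p := p) b (fun i : b => (c i : ℂ)) g y
    rw [e1]
    refine Fintype.sum_congr _ _ fun i => ?_
    rw [hgdef, ← PP_irr_of_mem i.2, PP_PP hM hb.1]
  -- the reduced pair
  obtain ⟨a₀, ha₀⟩ := hLint _ h₀₁ _ h₀₁
  obtain ⟨b₀, hb₀⟩ := hLint _ h₀₁ _ h₀₂
  obtain ⟨c₀, hc₀⟩ := hLint _ h₀₂ _ h₀₂
  obtain ⟨φ₁, φ₂, h₁, h₂, hgen, a, β, c, ha, hβ, hc, h0, h1, h2⟩ :=
    exists_reduced (L := L) (P := P) ((a₀ + c₀).toNat + 1) φ₀₁ φ₀₂ h₀₁ h₀₂ hgen₀ a₀ b₀ c₀ ha₀ hb₀ hc₀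
      (by
        have := Int.self_le_toNat (a₀ + c₀)
        push_cast
        omega)
  have hβ' : (P : ℂ) * classInner φ₂ φ₁ = -(β : ℂ) := by
    have h3 := congrArg conj hβ
    rw [map_mul, conj_classInner, Complex.conj_natCast, map_neg, map_intCast] at h3
    exact h3
  -- the coordinates
  have hd : ∀ ξ : b, ∃ d₁ d₂ : ℤ, g ξ = d₁ • φ₁ + d₂ • φ₂ := fun ξ =>
    hgen _ (Submodule.subset_span ⟨ξ, rfl⟩)
  choose d₁ d₂ hd using hd
  let D₁ : IrrCharacter (Subgroup.centralizer ({x} : Set G)) → ℤ :=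
    fun ξ => if h : ξ ∈ b then d₁ ⟨ξ, h⟩ else 0
  let D₂ : IrrCharacter (Subgroup.centralizer ({x} : Set G)) → ℤ :=
    fun ξ => if h : ξ ∈ b then d₂ ⟨ξ, h⟩ else 0
  set f : B → Subgroup.centralizer ({x} : Set G) → ℂ :=
    fun i => PP p b (vt x (i : IrrCharacter G)) with hfdef
  let x₁ : B → ℂ := fun i => ∑ ξ, cc b (vt x (i : IrrCharacter G)) ξ * (D₁ ξ : ℂ)
  let x₂ : B → ℂ := fun i => ∑ ξ, cc b (vt x (i : IrrCharacter G)) ξ * (D₂ ξ : ℂ)
  have hcc : ∀ (i : B) ξ, cc b (vt x (i : IrrCharacter G)) ξ ∈ Zr (p ^ k) := by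
    intro i ξ
    by_cases hξ : ξ ∈ b
    · rw [cc_of_mem _ hξ]
      exact classInner_vt_mem_Zr hk _ _
    · rw [cc_of_notMem _ hξ]
      exact zero_mem _
  have hx₁ : ∀ i, x₁ i ∈ Zr (p ^ k) := fun i =>
    sum_mem fun ξ _ => mul_mem (hcc i ξ) (intCast_mem_Zr _)
  have hx₂ : ∀ i, x₂ i ∈ Zr (p ^ k) := fun i =>
    sum_mem fun ξ _ => mul_mem (hcc i ξ) (intCast_mem_Zr _)
  have hf : ∀ i, f i = fun y => x₁ i * φ₁ y + x₂ i * φ₂ y := by
    intro i
    funext y
    simp only [hfdef, x₁, x₂]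
    rw [PP_eq_sum_cc, Finset.sum_mul, Finset.sum_mul, ← Finset.sum_add_distrib]
    refine Fintype.sum_congr _ _ fun ξ => ?_
    by_cases hξ : ξ ∈ b
    · have e1 : pRegularPart p (ξ : Subgroup.centralizer ({x} : Set G) → ℂ) y =
          (d₁ ⟨ξ, hξ⟩ : ℂ) * φ₁ y + (d₂ ⟨ξ, hξ⟩ : ℂ) * φ₂ y := by
        have e2 := congrFun (hd ⟨ξ, hξ⟩) y
        rw [hgdef] at e2
        simpa using e2
      rw [e1]
      simp only [D₁, D₂, dif_pos hξ]
      ring
    · rw [cc_of_notMem _ hξ]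
      simp
  -- the dual coordinates
  set y₁ : B → ℂ := fun i => (P : ℂ) * classInner φ₁ (f i) with hy₁def
  set y₂ : B → ℂ := fun i => (P : ℂ) * classInner φ₂ (f i) with hy₂def
  have hy₁ : ∀ i, y₁ i = (a : ℂ) * conj (x₁ i) - (β : ℂ) * conj (x₂ i) := by
    intro i
    simp only [hy₁def]
    rw [hf, classInner_lin_right]
    linear_combination conj (x₁ i) * ha + conj (x₂ i) * hβ
  have hy₂ : ∀ i, y₂ i = -(β : ℂ) * conj (x₁ i) + (c : ℂ) * conj (x₂ i) := by
    intro i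
    simp only [hy₂def]
    rw [hf, classInner_lin_right]
    linear_combination conj (x₁ i) * hβ' + conj (x₂ i) * hc
  have hstar := star_section (M := M) hM ⟨k, hk⟩ hB hb
  have hsum : ∀ u ∈ L, ∀ v, ∑ i, (P : ℂ) * classInner u (f i) * conj ((P : ℂ) * classInner v (f i)) =
      (P : ℂ) * ((P : ℂ) * classInner u v) := by
    intro u hu v
    have h3 := sum_inner_mul_inner_PP (M := M) (p := p) hM hb.1 (f := f) hstar u v
    rw [hLPP u hu] at h3
    rw [← h3, Finset.mul_sum, Finset.mul_sum]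
    refine Fintype.sum_congr _ _ fun i => ?_
    rw [map_mul, Complex.conj_natCast, conj_classInner]
    ring
  have s11 : ∑ i, y₁ i * conj (y₁ i) = (P : ℂ) * a := by
    rw [← ha]
    exact hsum φ₁ h₁ φ₁
  have s12 : ∑ i, y₁ i * conj (y₂ i) = -(P : ℂ) * β := by
    rw [neg_mul, ← mul_neg, ← hβ]
    exact hsum φ₁ h₁ φ₂
  have s22 : ∑ i, y₂ i * conj (y₂ i) = (P : ℂ) * c := by
    rw [← hc]
    exact hsum φ₂ h₂ φ₂
  -- the central elements
  obtain ⟨Z₁, hZ₁, hΩ₁⟩ := exists_omega_of (M := M) hM hb.1 hne hq (hLcl φ₁ h₁) (hLloc φ₁ h₁) (hLPP φ₁ h₁)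
  obtain ⟨Z₂, hZ₂, hΩ₂⟩ := exists_omega_of (M := M) hM hb.1 hne hq (hLcl φ₂ h₂) (hLloc φ₂ h₂) (hLPP φ₂ h₂)
  set w := Nat.card G / p ^ (Nat.card G).factorization p with hw
  have hwp : ¬ p ∣ w := Nat.not_dvd_ordCompl hp Nat.card_pos.ne'
  have hsame : ∀ (Z : Subalgebra.center ℂ (GA G)), Z ∈ localCenter M G → ∀ {a c : IrrCharacter G},
      a ∈ B → c ∈ B → MemLocalIdeal M (omegaHom a Z) → MemLocalIdeal M (omegaHom c Z) := by
    intro Z hZl a c ha hc hmem
    have hs : SameBlock M (c : G → ℂ) (a : G → ℂ) := by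
      have := isPBlock_eq_blockOf hB ha
      rw [this] at hc
      exact sameBlock_symm hc
    have h2 := omegaHom_sub_mem_of_sameBlock hs hZl
    have h3 := memLocalIdeal_add h2 hmem
    simpa using h3
  obtain ⟨τ, hτ⟩ := Cfsg.Agent.Lib.Contrib.TwoMajor.exists_height_zero (p := p) hne
  obtain ⟨m, hdef, -, -, -, -, hnot, -⟩ := exists_matrix_def hM hk hB hb
  have hmτ : ¬ MemLocalIdeal M ((P : ℂ) * classInner (f τ) (f τ)) := by
    have h3 := hnot τ τ hτ hτ
    rw [hdef] at h3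
    exact h3
  have hzero : ∀ (u : Subgroup.centralizer ({x} : Set G) → ℂ) (Z : Subalgebra.center ℂ (GA G)),
      Z ∈ localCenter M G → (∀ ψ ∈ B, ∃ t : ℕ, ¬ p ∣ t ∧
        ((p ^ blockDefect p b : ℕ) : ℂ) * classInner u (PP p b (vt x ψ)) /
          ((p ^ blockHeight p B (ψ : G → ℂ) : ℕ) : ℂ) = (t : ℂ) * (w : ℂ)⁻¹ * omegaHom ψ Z) →
      ¬ MemLocalIdeal M (omegaHom (τ : IrrCharacter G) Z) → ∀ i : B, (P : ℂ) * classInner u (f i) ≠ 0 := by
    intro u Z hZl hΩ hτZ i h0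
    obtain ⟨t, ht, e⟩ := hΩ i i.2
    have hi : ¬ MemLocalIdeal M (omegaHom (i : IrrCharacter G) Z) := fun h =>
      hτZ (hsame Z hZl i.2 τ.2 h)
    obtain ⟨hu1, hu2⟩ := unit_aux (M := M) hM ht hwp
    have h3 := notMem_mul hu1 hu2 (omegaHom_mem_local _ hZl) hi
    apply h3
    rw [← e]
    change MemLocalIdeal M ((P : ℂ) * classInner u (f i) / _)
    rw [h0, zero_div]
    exact memLocalIdeal_zero
  have hmemτ : ∀ (u : Subgroup.centralizer ({x} : Set G) → ℂ) (Z : Subalgebra.center ℂ (GA G)),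
      (∀ ψ ∈ B, ∃ t : ℕ, ¬ p ∣ t ∧
        ((p ^ blockDefect p b : ℕ) : ℂ) * classInner u (PP p b (vt x ψ)) /
          ((p ^ blockHeight p B (ψ : G → ℂ) : ℕ) : ℂ) = (t : ℂ) * (w : ℂ)⁻¹ * omegaHom ψ Z) →
      MemLocalIdeal M (omegaHom (τ : IrrCharacter G) Z) → MemLocalIdeal M ((P : ℂ) * classInner u (f τ)) := by
    intro u Z hΩ hmem
    obtain ⟨t, ht, e⟩ := hΩ τ τ.2
    rw [hτ, pow_zero, Nat.cast_one, div_one] at e
    have e' : (P : ℂ) * classInner u (f τ) = (t : ℂ) * (w : ℂ)⁻¹ * omegaHom (τ : IrrCharacter G) Z := e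
    rw [e']
    exact memLocalIdeal_mul_left (unit_aux (M := M) hM ht hwp).1 hmem
  have hcase : ¬ MemLocalIdeal M (omegaHom (τ : IrrCharacter G) Z₁) ∨
      ¬ MemLocalIdeal M (omegaHom (τ : IrrCharacter G) Z₂) := by
    by_contra hc'
    push Not at hc'
    apply hmτ
    have e1 : (P : ℂ) * classInner (f τ) (f τ) = x₁ τ * y₁ τ + x₂ τ * y₂ τ := by
      have e0 : classInner (f τ) (f τ) = classInner (fun y => x₁ τ * φ₁ y + x₂ τ * φ₂ y) (f τ) := by
        rw [← hf τ]
      rw [e0, classInner_lin_left]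
      simp only [hy₁def, hy₂def]
      ring
    rw [e1]
    have hr' : p ^ k ≠ 0 := pow_ne_zero _ hp.ne_zero
    exact memLocalIdeal_add
      (memLocalIdeal_mul_left (memLocalRing_of_isIntegral (isIntegral_of_mem_Zr hr' (hx₁ τ)))
        (hmemτ φ₁ Z₁ hΩ₁ hc'.1))
      (memLocalIdeal_mul_left (memLocalRing_of_isIntegral (isIntegral_of_mem_Zr hr' (hx₂ τ)))
        (hmemτ φ₂ Z₂ hΩ₂ hc'.2))
  refine card_le_of_reduced (r := p ^ k) hx₁ hx₂ hP0 h0 h1 h2 hy₁ hy₂ s11 s12 s22 ?_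
  rcases hcase with h | h
  · exact Or.inl (hzero φ₁ Z₁ hZ₁ hΩ₁ h)
  · exact Or.inr (hzero φ₂ Z₂ hZ₂ hΩ₂ h)

end Main

end Cfsg.Agent.Lib.Contrib.RankTwo
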