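import Mathlib
import Cfsg.Agent.Lib.Contrib.Sec
import Cfsg.Agent.Lib.Contrib.Cyc2

/-!
# The case `p = 2`: the averaged diagonal entries are odd integers
-/

set_option linter.unusedSectionVars false
set_option autoImplicit false
set_option linter.style.haveILetI false

namespace Cfsg.Agent.Lib.Contrib.Two

open Cfsg MonoidAlgebra
open Cfsg.Agent.Lib.Blocks.Local Cfsg.Agent.Lib.Blocks.Central
open Cfsg.Agent.Lib.Contrib.Cyc Cfsg.Agent.Lib.Contrib.Sec
open scoped ComplexConjugate

universe u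

variable {G : Type u} [Group G] [Fintype G] [Fintype (IrrCharacter G)] {M : Ideal AlgInt} {x : G}
  [Fintype (Subgroup.centralizer ({x} : Set G))] [Fintype (IrrCharacter (Subgroup.centralizer ({x} : Set G)))]

/-- The core of the bound for `p = 2`. -/
theorem core (hM : IsPModular 2 M) {k : ℕ} (hk : orderOf x = 2 ^ k)
    {B : Set (IrrCharacter G)} (hB : IsPBlock M B) [Fintype B]
    {b : Set (IrrCharacter (Subgroup.centralizer ({x} : Set G)))}
    (hb : IsInducedBlock M (Subgroup.centralizer ({x} : Set G)) b B)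
    (Z : Finset B) (hZ : ∀ i ∈ Z, blockHeight 2 B ((i : IrrCharacter G) : G → ℂ) = 0)
    (hne : Z.Nonempty) :
    ∃ j₀ : ℕ, Odd j₀ ∧ Z.card ≤ 2 ^ blockDefect 2 b * j₀ ∧
      Z.card * j₀ ≤ 2 ^ blockDefect 2 b * blockRank 2 b := by
  classical
  haveI hMp := isPrime_of_pModular hM
  obtain ⟨m, hZr, hconj, hmul, htr, hnot, hform⟩ := exists_matrix_full hM hk hB hb
  set P := 2 ^ blockDefect 2 b with hP
  have hP0 : 0 < P := by positivity
  have hPc : (P : ℂ) ≠ 0 := Nat.cast_ne_zero.mpr hP0.ne'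
  set R : B → ℝ := fun i => ∑ j, nrm (2 ^ k) (m i j) with hR
  have hRc : ∀ i, ((R i : ℝ) : ℂ) = (P : ℂ) * avg (2 ^ k) (m i i) := fun i =>
    sum_nrm_row hZr hconj i (hmul i)
  have hRnn : ∀ i, 0 ≤ R i := fun i => Finset.sum_nonneg fun j _ => nrm_nonneg _ _
  have hRsum : ∑ i, R i = ((P * (P * blockRank 2 b) : ℕ) : ℝ) := sum_sum_nrm hZr hconj hmul htr
  have hRZ : ∀ i ∈ Z, (Z.card : ℝ) ≤ R i := by
    intro i hi
    have h1 : ∑ _j ∈ Z, (1 : ℝ) ≤ ∑ j ∈ Z, nrm (2 ^ k) (m i j) :=
      Finset.sum_le_sum fun j hj => one_le_nrm (hZr i j)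
        (ne_zero_of_notMem (hnot i j (hZ i hi) (hZ j hj)))
    have h2 : ∑ j ∈ Z, nrm (2 ^ k) (m i j) ≤ R i :=
      Finset.sum_le_univ_sum_of_nonneg fun j => nrm_nonneg _ _
    simp only [Finset.sum_const, nsmul_eq_mul, mul_one] at h1
    linarith
  -- the odd integers
  have hodd : ∀ i ∈ Z, ∃ t : ℕ, Odd t ∧ R i = (P : ℝ) * t := by
    intro i hi
    obtain ⟨N, hNs, hNm⟩ := hform i
    have hroot : ∀ a : IrrCharacter (Subgroup.centralizer ({x} : Set G)), eps x a ^ 2 ^ k = 1 :=
      fun a => eps_pow (by rw [← hk]; exact pow_orderOf_eq_one x) a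
    obtain ⟨t, ht, ht2⟩ := avg_sym N hNs (eps x) hroot
    rw [← hNm] at ht
    -- the sum of the coefficients is odd
    have hNodd : ¬ (2 : ℤ) ∣ ∑ a, ∑ c, N a c := by
      rintro ⟨c, hc⟩
      apply hnot i i (hZ i hi) (hZ i hi)
      have h1 : m i i = ∑ a, ∑ c, (N a c : ℂ) * (eps x a * conj (eps x c) - 1) + (2 : ℂ) * c := by
        have h2 : ((∑ a, ∑ c, N a c : ℤ) : ℂ) = 2 * c := by
          rw [hc]
          push_cast
          ring
        push_cast at h2
        rw [hNm, ← h2, ← Finset.sum_add_distrib]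
        refine Fintype.sum_congr _ _ fun a => ?_
        rw [← Finset.sum_add_distrib]
        refine Fintype.sum_congr _ _ fun c => ?_
        ring
      rw [h1]
      refine memLocalIdeal_add (memLocalIdeal_sum _ _ fun a _ => memLocalIdeal_sum _ _ fun c _ => ?_) ?_
      · refine memLocalIdeal_mul_left (memLocalRing_intCast _) (root_sub_one_mem hM (k := k) ?_)
        rw [mul_pow, ← map_pow, hroot, hroot, map_one, one_mul]
      · have := p_memLocalIdeal hM
        push_cast at this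
        exact memLocalIdeal_mul_right this (memLocalRing_intCast c)
    have htodd : ¬ (2 : ℤ) ∣ t := by
      intro h
      apply hNodd
      have := dvd_sub h ht2
      simpa using this
    have hRt : R i = (P : ℝ) * t := by
      apply Complex.ofReal_injective
      rw [hRc, ht]
      push_cast
      rfl
    have hZpos : (0 : ℝ) < Z.card := by exact_mod_cast hne.card_pos
    have htpos : 0 < t := by
      have h1 := hRZ i hi
      rw [hRt] at h1
      have h2 : (0 : ℝ) < (P : ℝ) * t := lt_of_lt_of_le hZpos h1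
      have h3 : (0 : ℝ) < t := by
        have hP' : (0 : ℝ) < P := by exact_mod_cast hP0
        exact (pos_iff_pos_of_mul_pos h2).mp hP'
      exact_mod_cast h3
    refine ⟨t.toNat, ?_, ?_⟩
    · have h3 : ((t.toNat : ℕ) : ℤ) = t := Int.toNat_of_nonneg htpos.le
      rw [← Nat.not_even_iff_odd]
      intro h4
      apply htodd
      rw [← h3]
      exact_mod_cast h4.two_dvd
    · rw [hRt]
      congr 1
      have h3 : ((t.toNat : ℕ) : ℤ) = t := Int.toNat_of_nonneg htpos.le
      exact_mod_cast congrArg (fun z : ℤ => (z : ℝ)) h3.symm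
  choose! t ht using hodd
  obtain ⟨i₀, hi₀, hmin⟩ := Finset.exists_min_image Z t hne
  refine ⟨t i₀, (ht i₀ hi₀).1, ?_, ?_⟩
  · have h1 := hRZ i₀ hi₀
    rw [(ht i₀ hi₀).2] at h1
    exact_mod_cast h1
  · have h1 : ∑ i ∈ Z, R i ≤ ∑ i, R i := Finset.sum_le_univ_sum_of_nonneg hRnn
    have h2 : ∑ i ∈ Z, (P : ℝ) * t i₀ ≤ ∑ i ∈ Z, R i := by
      refine Finset.sum_le_sum fun i hi => ?_
      rw [(ht i hi).2]
      have h3 : (t i₀ : ℝ) ≤ t i := by exact_mod_cast hmin i hi
      have hP' : (0 : ℝ) ≤ P := by positivity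
      exact mul_le_mul_of_nonneg_left h3 hP'
    rw [hRsum] at h1
    simp only [Finset.sum_const, nsmul_eq_mul] at h2
    have h3 : ((Z.card : ℝ)) * ((P : ℝ) * t i₀) ≤ ((P * (P * blockRank 2 b) : ℕ) : ℝ) := h2.trans h1
    have h4 : Z.card * (P * t i₀) ≤ P * (P * blockRank 2 b) := by exact_mod_cast h3
    have h5 : P * (Z.card * t i₀) ≤ P * (P * blockRank 2 b) := by
      calc P * (Z.card * t i₀) = Z.card * (P * t i₀) := by ring
        _ ≤ _ := h4
    exact Nat.le_of_mul_le_mul_left h5 hP0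

end Cfsg.Agent.Lib.Contrib.Two
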